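import Cfsg.Agent.E82.Grp.P44
import Cfsg.Agent.E82.F5.Iface

/-!
# S3369: the four subgroups `A₅` of `Sp₄(4)` (helper79, box `GRP44`)

`ph 0`, `ph 1` act on the planes `⟨e₁, f₁⟩`, `⟨e₂, f₂⟩`; `ph 2 x5 = ph 0 x5 * ph 1 x5`, `ph 3 x5 = ph 0 x5 * (ph 1 x5)⁻¹`.
-/

set_option autoImplicit false

namespace Cfsg.Agent.E82.Grp

open Cfsg.Agent.Lib.VonDyck (a5 b5 closure_a5_b5 exists_hom_alternatingFive)
open Cfsg.Agent.ClassicalGeometry.SympBasic (transv)
open Cfsg.Agent.E82.F5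

/-- the images of `a5` -/
def nA : Fin 4 → ℕ := ![1074856961, 1141900289, 3786673675, 3769634315]

/-- the images of `b5` -/
def nB : Fin 4 → ℕ := ![1074922544, 1209057281, 3904019050, 2578882150]

/-- the images of `b5⁻¹` -/
def nB' : Fin 4 → ℕ := ![1073873969, 135316481, 2829229675, 3651574375]

/-- the images of `x5` -/
def nX : Fin 4 → ℕ := ![1074988083, 1276169217, 1276365875, 3423847475]

/-- the images of `x5⁻¹` -/
def nX' : Fin 4 → ℕ := ![1077085233, 3423650817, 3425944625, 1278463025]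

/-- the images of `w5` -/
def nW : Fin 4 → ℕ := ![1074988033, 1276118017, 323748100, 272630020]

theorem chk_all : ∀ i : Fin 4, chk (List.replicate 2 (nA i)) [] = true ∧ chk (List.replicate 3 (nB i)) [] = true ∧
    chk [nA i, nB i] [nX i] = true ∧ chk (List.replicate 5 (nX i)) [] = true ∧ chk [nB i, nB' i] [] = true ∧
    chk [nX i, nX' i] [] = true ∧
    chk [nB i, nA i, nB' i, nA i, nB i, nA i, nB' i, nA i, nB i] [nW i] = true ∧ okb (nX i) = true ∧
    mt (nX i) ≠ mt one := by decide +kernel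

theorem exists_ph (i : Fin 4) : ∃ φ : A5 →* S44, φ a5 = G (nA i) ∧ φ b5 = G (nB i) :=
  exists_hom_alternatingFive (pow_eq_one 2 (chk_all i).1) (pow_eq_one 3 (chk_all i).2.1)
    (by rw [eq2 (chk_all i).2.2.1]; exact pow_eq_one 5 (chk_all i).2.2.2.1)

/-- the four homomorphisms -/
noncomputable def ph (i : Fin 4) : A5 →* S44 := Classical.choose (exists_ph i)

theorem ph_a (i : Fin 4) : ph i a5 = G (nA i) := (Classical.choose_spec (exists_ph i)).1

theorem ph_b (i : Fin 4) : ph i b5 = G (nB i) := (Classical.choose_spec (exists_ph i)).2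

theorem ph_b' (i : Fin 4) : (ph i b5)⁻¹ = G (nB' i) := by rw [ph_b, inv_eq (chk_all i).2.2.2.2.1]

theorem ph_x (i : Fin 4) : ph i x5 = G (nX i) := by rw [x5, map_mul, ph_a, ph_b, eq2 (chk_all i).2.2.1]

theorem ph_x' (i : Fin 4) : (ph i x5)⁻¹ = G (nX' i) := by rw [ph_x, inv_eq (chk_all i).2.2.2.2.2.1]

theorem ph_w (i : Fin 4) : ph i w5 = G (nW i) := by
  rw [w5, pow_two]
  simp only [map_mul, map_inv, ph_b']
  rw [ph_a, ph_b]
  simpa [mul_assoc] using prod_eq _ _ (chk_all i).2.2.2.2.2.2.1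

section

variable {S : Type} [Group S]

theorem hom_ext {φ ψ : A5 →* S} (ha : φ a5 = ψ a5) (hb : φ b5 = ψ b5) : φ = ψ :=
  MonoidHom.eq_of_eqOn_dense closure_a5_b5 (by rintro _ (rfl | rfl) <;> assumption)

theorem comm_hom {φ : A5 →* S} {u : S} (ha : Commute (φ a5) u) (hb : Commute (φ b5) u) (g : A5) : Commute (φ g) u := by
  have h : (MulAut.conj u).toMonoidHom.comp φ = φ := hom_ext
    (by show u * φ a5 * u⁻¹ = φ a5; rw [← ha.eq, mul_inv_cancel_right])
    (by show u * φ b5 * u⁻¹ = φ b5; rw [← hb.eq, mul_inv_cancel_right])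
  have h2 : u * φ g * u⁻¹ = φ g := DFunLike.congr_fun h g
  exact (mul_inv_eq_iff_eq_mul.1 h2).symm

theorem comm_homs {φ ψ : A5 →* S} (h1 : Commute (φ a5) (ψ a5)) (h2 : Commute (φ a5) (ψ b5))
    (h3 : Commute (φ b5) (ψ a5)) (h4 : Commute (φ b5) (ψ b5)) (g h : A5) : Commute (φ g) (ψ h) :=
  comm_hom (comm_hom h1.symm h2.symm h).symm (comm_hom h3.symm h4.symm h).symm g

theorem sw_of {φ ψ : A5 →* S} {u : S} (ha : u * φ a5 * u⁻¹ = ψ w5 * ψ a5 * (ψ w5)⁻¹)
    (hb : u * φ b5 * u⁻¹ = ψ w5 * ψ b5 * (ψ w5)⁻¹) (g : A5) : u * φ g * u⁻¹ = ψ (w5 * g * w5⁻¹) := by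
  have h : (MulAut.conj u).toMonoidHom.comp φ = (MulAut.conj (ψ w5)).toMonoidHom.comp ψ := hom_ext ha hb
  rw [map_mul, map_mul, map_inv]
  exact DFunLike.congr_fun h g

end

theorem c01 (g h : A5) : Commute (ph 0 g) (ph 1 h) := by
  refine comm_homs ?_ ?_ ?_ ?_ g h <;> simp only [ph_a, ph_b] <;> exact comm (by decide +kernel)

theorem c23 (g h : A5) : Commute (ph 2 g) (ph 3 h) := by
  refine comm_homs ?_ ?_ ?_ ?_ g h <;> simp only [ph_a, ph_b] <;> exact comm (by decide +kernel)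

theorem ph_ne (i : Fin 4) : ph i x5 ≠ 1 := by
  rw [ph_x]
  exact ne_one (chk_all i).2.2.2.2.2.2.2.1 (chk_all i).2.2.2.2.2.2.2.2

theorem x2_eq : ph 2 x5 = ph 0 x5 * ph 1 x5 := by
  rw [ph_x, ph_x, ph_x]
  exact (eq2 (by decide +kernel)).symm

theorem x3_eq : ph 3 x5 = ph 0 x5 * (ph 1 x5)⁻¹ := by
  rw [ph_x', ph_x, ph_x]
  exact (eq2 (by decide +kernel)).symm

theorem x0_eq : ph 0 x5 = (ph 2 x5 * ph 3 x5) ^ 3 := by
  rw [ph_x, ph_x, ph_x, pow_three']
  simpa [mul_assoc] using prod_eq [nX 0] [nX 2, nX 3, nX 2, nX 3, nX 2, nX 3] (by decide +kernel)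

theorem x1_eq : ph 1 x5 = (ph 2 x5 * (ph 3 x5)⁻¹) ^ 3 := by
  rw [ph_x', ph_x, ph_x, pow_three']
  simpa [mul_assoc] using prod_eq [nX 1] [nX 2, nX' 3, nX 2, nX' 3, nX 2, nX' 3] (by decide +kernel)

theorem w_inv (i : Fin 4) : (ph i w5)⁻¹ = ph i w5 :=
  inv_eq_of_mul_eq_one_right (by rw [← map_mul, w5_sq, map_one])

theorem sw01 (g : A5) : ph 2 w5 * ph 0 g * (ph 2 w5)⁻¹ = ph 1 (w5 * g * w5⁻¹) := by
  refine sw_of ?_ ?_ g <;> simp only [w_inv] <;> simp only [ph_a, ph_b, ph_w]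
  · simpa [mul_assoc] using prod_eq [nW 2, nA 0, nW 2] [nW 1, nA 1, nW 1] (by decide +kernel)
  · simpa [mul_assoc] using prod_eq [nW 2, nB 0, nW 2] [nW 1, nB 1, nW 1] (by decide +kernel)

theorem sw23 (g : A5) : ph 0 w5 * ph 2 g * (ph 0 w5)⁻¹ = ph 3 (w5 * g * w5⁻¹) := by
  refine sw_of ?_ ?_ g <;> simp only [w_inv] <;> simp only [ph_a, ph_b, ph_w]
  · simpa [mul_assoc] using prod_eq [nW 0, nA 2, nW 0] [nW 3, nA 3, nW 3] (by decide +kernel)
  · simpa [mul_assoc] using prod_eq [nW 0, nB 2, nW 0] [nW 3, nB 3, nW 3] (by decide +kernel)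

theorem y01 : IsConj (ph 0 b5) (ph 1 b5) := by
  rw [ph_b, ph_b]
  exact isConj (nW 3) (by decide +kernel)

theorem y23 : IsConj (ph 2 b5) (ph 3 b5) := by
  rw [ph_b, ph_b]
  exact isConj 3030597841 (by decide +kernel)

theorem ym : IsConj (ph 0 b5 * ph 1 b5) (ph 2 b5) := by
  rw [ph_b, ph_b, ph_b, eq2 (c := 1209188400) (by decide +kernel)]
  exact isConj 2830275632 (by decide +kernel)

theorem yd : IsConj (ph 0 b5 * (ph 1 b5)⁻¹) (ph 2 b5) := by
  rw [ph_b', ph_b, ph_b, eq2 (c := 135447600) (by decide +kernel)]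
  exact isConj 1085445168 (by decide +kernel)

theorem ym' : IsConj (ph 2 b5 * ph 3 b5) (ph 0 b5) := by
  rw [ph_b, ph_b, ph_b, eq2 (c := 1261962270) (by decide +kernel)]
  exact isConj 1411712015 (by decide +kernel)

theorem yd' : IsConj (ph 2 b5 * (ph 3 b5)⁻¹) (ph 0 b5) := by
  rw [ph_b', ph_b, ph_b, eq2 (c := 2743770740) (by decide +kernel)]
  exact isConj 1716654773 (by decide +kernel)

theorem tv_a0 : transv (vc 1) 1 = G (nA 0) :=
  Subtype.ext (by rw [coe_G (ok_of (by decide +kernel))]; decide +kernel)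

theorem tv_a1 : transv (vc 4) 1 = G (nA 1) :=
  Subtype.ext (by rw [coe_G (ok_of (by decide +kernel))]; decide +kernel)

/-- an orbit -/
def orb1 : List ℕ :=
  [5, 6, 7, 192, 193, 194, 195, 45, 47, 408, 409, 411, 205, 207, 196, 198, 384, 385, 387, 436, 437, 439, 160, 161,
   162, 163, 232, 233, 234, 402, 403, 476, 477, 478, 479, 412, 413, 414, 68, 69, 70, 71, 704, 705, 707, 201, 203, 428,
   429, 431, 393, 394, 395, 396, 397, 398, 399, 265, 266, 445, 446, 447, 380, 381, 383, 372, 373, 374, 169, 170, 171,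
   174, 175, 861, 863, 243, 229, 230, 231, 165, 167, 424, 425, 427, 249, 251, 880, 881, 883, 465, 466, 340, 732, 733,
   734, 735, 405, 406, 407, 286, 227, 65, 67, 136, 749, 751, 833, 835, 717, 718, 708, 709, 711, 525, 526, 132, 133,
   134, 135, 857, 859, 421, 423, 303, 481, 460, 461, 462, 245, 247, 996, 997, 998, 999, 389, 391, 271, 217, 219, 636,
   637, 638, 323, 948, 949, 253, 921, 923, 377, 504, 506, 557, 558, 559, 370, 371, 441, 442, 443, 331, 237, 873, 875,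
   541, 543, 837, 839, 900, 901, 984, 986, 521, 80, 38, 944, 946, 947, 108, 111, 361, 418, 419, 495, 120, 121, 183,
   701, 891, 738, 469, 470, 569, 571, 721, 597, 598, 350, 213, 745, 928, 929, 553, 554, 73, 613, 614, 615, 742, 841,
   773, 581, 582, 89, 91, 713, 916, 879, 757, 781, 782, 451, 1001, 1003, 805, 1008, 1009, 620, 335, 144, 145, 275, 763,
   189, 959, 893, 117, 550, 501, 673, 455, 359, 347, 102, 809, 975, 563, 663, 126, 58, 573, 355, 871, 961, 934]

/-- an orbit -/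
def orb2 : List ℕ :=
  [16, 17, 19, 57, 59, 616, 617, 618, 619, 768, 769, 771, 808, 810, 811, 520, 521, 522, 523, 817, 819, 632, 634, 635,
   584, 585, 888, 889, 890, 891, 589, 590, 591, 592, 593, 594, 595, 784, 613, 614, 615, 792, 793, 795, 537, 539, 509,
   510, 511, 780, 781, 782, 783, 552, 553, 555, 568, 569, 900, 901, 902, 903, 272, 273, 275, 777, 600, 601, 603, 120,
   813, 815, 453, 454, 455, 944, 945, 946, 947, 840, 843, 346, 108, 111, 621, 623, 636, 637, 638, 639, 803, 336, 338,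
   339, 625, 627, 369, 370, 371, 629, 631, 302, 303, 580, 581, 884, 885, 887, 708, 709, 710, 711, 24, 358, 359, 313,
   314, 164, 167, 492, 493, 495, 1004, 1006, 1007, 597, 260, 262, 263, 829, 831, 797, 799, 481, 482, 483, 177, 179,
   827, 473, 475, 730, 731, 257, 259, 180, 183, 951, 918, 957, 959, 456, 457, 459, 172, 175, 791, 941, 943, 376, 378,
   706, 707, 699, 541, 542, 908, 484, 485, 265, 899, 400, 402, 403, 169, 171, 856, 859, 976, 977, 978, 892, 894, 805,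
   807, 440, 442, 607, 125, 529, 531, 608, 609, 611, 749, 751, 188, 189, 191, 355, 864, 839, 117, 316, 44, 45, 47, 821,
   657, 659, 341, 743, 757, 299, 851, 391, 561, 719, 236, 1017, 1018, 248, 249, 251, 937, 279, 211, 876, 28, 497, 224,
   227, 664, 641, 280, 760, 507, 404, 935, 412, 413, 503, 668, 325, 754, 575, 519, 223, 967, 73, 882, 971, 712, 649]

theorem gen03 : Subgroup.closure {ph 0 a5, ph 0 b5, ph 3 a5, ph 3 b5} = ⊤ := by
  simp only [ph_a, ph_b]
  refine gen_of [nA 0, nB 0, nA 3, nB 3] (by decide +kernel) (fun a ha => Subgroup.subset_closure ?_) 1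
    (tv_a0 ▸ Subgroup.subset_closure (by simp)) orb1 (by decide +kernel)
  simp only [List.mem_cons, List.not_mem_nil, or_false] at ha
  rcases ha with rfl | rfl | rfl | rfl <;> simp

theorem gen21 : Subgroup.closure {ph 2 a5, ph 2 b5, ph 1 a5, ph 1 b5} = ⊤ := by
  simp only [ph_a, ph_b]
  refine gen_of [nA 2, nB 2, nA 1, nB 1] (by decide +kernel) (fun a ha => Subgroup.subset_closure ?_) 4
    (tv_a1 ▸ Subgroup.subset_closure (by simp)) orb2 (by decide +kernel)
  simp only [List.mem_cons, List.not_mem_nil, or_false] at ha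
  rcases ha with rfl | rfl | rfl | rfl <;> simp

theorem d44 : D44 ph where
  c01 := c01
  c23 := c23
  ne := ph_ne
  pts := ⟨1, Or.inl rfl, by rw [pow_one, x2_eq], by rw [pow_one, x3_eq]⟩
  sw01 := fun g => ⟨_, sw01 g⟩
  sw23 := fun g => ⟨_, sw23 g⟩
  y01 := y01
  ym := ym
  yd := yd
  gen := gen03

theorem d44' : D44 (swp ph) where
  c01 := c23
  c23 := c01
  ne := fun i => by fin_cases i <;> exact ph_ne _
  pts := ⟨3, Or.inr rfl, x0_eq, x1_eq⟩
  sw01 := fun g => ⟨_, sw23 g⟩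
  sw23 := fun g => ⟨_, sw01 g⟩
  y01 := y23
  ym := ym'
  yd := yd'
  gen := gen21

/-- **box GRP44** -/
theorem grp44 : ∃ φ : Fin 4 → A5 →* Sp44 Lib.FieldFour.F4, D44 φ ∧ D44 (swp φ) := ⟨ph, d44, d44'⟩

end Cfsg.Agent.E82.Grp
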