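import Cfsg.Agent.E82.Defs
import Cfsg.Agent.Lib.FieldFour
import Cfsg.Agent.ClassicalGeometry.SympBasic
import Cfsg.Agent.S0765

/-!
# S3369: elements of `Sp₄(4)` as numbers (helper79)

A vector is a number below `256` (two bits for each coordinate, in the order `inl 0, inl 1, inr 0, inr 1`; `0 1 2 3` stand
for `0, 1, w, w²`), a matrix is given by its four columns (eight bits each).

* `vc`, `mt` : vectors and matrices; `ap`, `mul` : the products; `okb` : the test for `Sp₄(4)`; `G a` : the group element;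
* `chk l l'` : two products are equal (`prod_eq`, `eq2`, `comm`, `conj`, `isConj`); `ne_one`;
* `gen_of` : a generation certificate (a transvection and an orbit on the vectors).
-/

set_option autoImplicit false

namespace Cfsg.Agent.E82.Grp

open Cfsg Matrix
open Cfsg.Agent.Lib.FieldFour
open Cfsg.Agent.ClassicalGeometry.SympBasic

/-- the vectors -/
abbrev V4 : Type := Fin 2 ⊕ Fin 2 → F4

/-- the matrices -/
abbrev M4 : Type := Matrix (Fin 2 ⊕ Fin 2) (Fin 2 ⊕ Fin 2) F4

/-- the group -/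
abbrev S44 : Type := Sp44 F4

/-- evaluate the number first -/
noncomputable def frc {α : Type} (n : ℕ) (f : ℕ → α) : α := Nat.rec (f 0) (fun k _ => f (Nat.succ k)) n

theorem frc_eq {α : Type} (n : ℕ) (f : ℕ → α) : frc n f = f n := by cases n <;> rfl

/-- a digit -/
def dg (n : ℕ) : F4 := if n % 4 = 0 then .o else if n % 4 = 1 then .i else if n % 4 = 2 then .w else .v

/-- the position of an index -/
def ix : Fin 2 ⊕ Fin 2 → ℕ := Sum.elim (fun i => i.val) fun i => 2 + i.val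

/-- the vector of a number -/
def vc (c : ℕ) : V4 := fun i => dg (c >>> (2 * ix i))

/-- the matrix of a number -/
def mt (a : ℕ) : M4 := Matrix.of fun i j => dg (a >>> (8 * ix j + 2 * ix i))

/-- a column -/
def cl (a j : ℕ) : ℕ := Nat.land (Nat.shiftRight a (Nat.mul 8 j)) 255

/-- multiplication by `w` -/
def tw (c : ℕ) : ℕ :=
  Nat.lor (Nat.land (Nat.shiftRight c 1) 85) (Nat.shiftLeft (Nat.land (Nat.xor c (Nat.shiftRight c 1)) 85) 1)

/-- multiplication by a digit -/
def sm (s c : ℕ) : ℕ := Nat.xor (Nat.mul (Nat.land s 1) c) (Nat.mul (Nat.land (Nat.shiftRight s 1) 1) (tw c))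

/-- a matrix applied to a vector -/
def ap (a v : ℕ) : ℕ :=
  Nat.xor (Nat.xor (sm v (cl a 0)) (sm (Nat.shiftRight v 2) (cl a 1)))
    (Nat.xor (sm (Nat.shiftRight v 4) (cl a 2)) (sm (Nat.shiftRight v 6) (cl a 3)))

/-- the product of two matrices -/
def mul (a b : ℕ) : ℕ :=
  Nat.add (Nat.add (ap a (cl b 0)) (Nat.mul 256 (ap a (cl b 1))))
    (Nat.mul 65536 (Nat.add (ap a (cl b 2)) (Nat.mul 256 (ap a (cl b 3)))))

/-- the unit matrix -/
def one : ℕ := 1074791425

theorem dg_mod (n : ℕ) : dg (n % 4) = dg n := by unfold dg; rw [Nat.mod_mod]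

theorem dg_xor (a b : ℕ) : dg (a ^^^ b) = dg a + dg b := by
  have h : ∀ x < 4, ∀ y < 4, dg (x ^^^ y) = dg x + dg y := by decide
  rw [← dg_mod, ← dg_mod a, ← dg_mod b, ← h _ (Nat.mod_lt _ (by norm_num)) _ (Nat.mod_lt _ (by norm_num))]
  exact congrArg dg (Nat.xor_mod_two_pow (n := 2))

theorem vc_xor (a b : ℕ) : vc (a ^^^ b) = vc a + vc b := by
  funext i
  show dg ((a ^^^ b) >>> _) = dg _ + dg _
  rw [Nat.shiftRight_xor_distrib, dg_xor]

theorem cl_eq (a j : ℕ) : cl a j = a / 256 ^ j % 256 := by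
  show (a >>> (8 * j)) &&& (2 ^ 8 - 1) = _
  rw [Nat.and_two_pow_sub_one_eq_mod, Nat.shiftRight_eq_div_pow, pow_mul]
  rfl

theorem cl_lt (a j : ℕ) : cl a j < 256 := by rw [cl_eq]; exact Nat.mod_lt _ (by norm_num)

theorem sm_mod (s c : ℕ) : sm (s % 4) c = sm s c := by
  have h1 : ∀ t : ℕ, Nat.land t 1 = t % 2 := fun t => Nat.and_one_is_mod t
  have h2 : ∀ t : ℕ, Nat.shiftRight t 1 = t / 2 := fun t => Nat.shiftRight_eq_div_pow t 1
  unfold sm
  rw [h1, h1, h1, h1, h2 s, h2 (s % 4), show s % 4 % 2 = s % 2 by omega, show s % 4 / 2 % 2 = s / 2 % 2 by omega]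

theorem sm_aux : ∀ s < 4, ∀ c < 256, sm s c < 256 ∧ ∀ k < 4, dg (sm s c >>> (2 * k)) = dg s * dg (c >>> (2 * k)) := by
  decide +kernel

theorem ix_lt (i : Fin 2 ⊕ Fin 2) : ix i < 4 := by revert i; decide

theorem sm_lt (s : ℕ) {c : ℕ} (hc : c < 256) : sm s c < 256 := by
  rw [← sm_mod]
  exact (sm_aux _ (Nat.mod_lt _ (by norm_num)) c hc).1

theorem vc_sm (s : ℕ) {c : ℕ} (hc : c < 256) : vc (sm s c) = dg s • vc c := by
  funext i
  rw [← sm_mod, ← dg_mod s]
  exact (sm_aux _ (Nat.mod_lt _ (by norm_num)) c hc).2 _ (ix_lt i)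

theorem vc_cl (a : ℕ) (i j : Fin 2 ⊕ Fin 2) : vc (cl a (ix j)) i = mt a i j := by
  show dg (cl a (ix j) >>> (2 * ix i)) = dg (a >>> (8 * ix j + 2 * ix i))
  rw [← dg_mod, ← dg_mod (a >>> _), cl_eq, Nat.shiftRight_eq_div_pow, Nat.shiftRight_eq_div_pow, pow_add, pow_mul 2 8,
    ← Nat.div_div_eq_div_mul, show 2 ^ 8 = 256 from rfl]
  generalize a / 256 ^ ix j = t
  have h := ix_lt i
  generalize ix i = k at h
  congr 1
  interval_cases k <;> omega

theorem ap_lt (a v : ℕ) : ap a v < 256 :=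
  Nat.xor_lt_two_pow (n := 8) (Nat.xor_lt_two_pow (n := 8) (sm_lt _ (cl_lt _ _)) (sm_lt _ (cl_lt _ _)))
    (Nat.xor_lt_two_pow (n := 8) (sm_lt _ (cl_lt _ _)) (sm_lt _ (cl_lt _ _)))

theorem vc_ap (a v : ℕ) : vc (ap a v) = mt a *ᵥ vc v := by
  show vc ((sm v (cl a 0) ^^^ sm (v >>> 2) (cl a 1)) ^^^ (sm (v >>> 4) (cl a 2) ^^^ sm (v >>> 6) (cl a 3))) = _
  rw [vc_xor, vc_xor, vc_xor, vc_sm _ (cl_lt _ _), vc_sm _ (cl_lt _ _), vc_sm _ (cl_lt _ _), vc_sm _ (cl_lt _ _)]
  funext i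
  rw [Matrix.mulVec, dotProduct, Fintype.sum_sum_type, Fin.sum_univ_two, Fin.sum_univ_two, ← vc_cl, ← vc_cl, ← vc_cl,
    ← vc_cl, mul_comm (vc _ i), mul_comm (vc _ i), mul_comm (vc _ i), mul_comm (vc _ i)]
  rfl

theorem cl_mul (a b : ℕ) {j : ℕ} (hj : j < 4) : cl (mul a b) j = ap a (cl b j) := by
  have h0 := ap_lt a (cl b 0)
  have h1 := ap_lt a (cl b 1)
  have h2 := ap_lt a (cl b 2)
  have h3 := ap_lt a (cl b 3)
  rw [cl_eq]
  show (ap a (cl b 0) + 256 * ap a (cl b 1) + 65536 * (ap a (cl b 2) + 256 * ap a (cl b 3))) / 256 ^ j % 256 = _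
  interval_cases j <;> omega

theorem mt_mul (a b : ℕ) : mt (mul a b) = mt a * mt b := by
  ext i j
  rw [← vc_cl, cl_mul _ _ (ix_lt j), vc_ap, Matrix.mul_apply, Matrix.mulVec, dotProduct]
  exact Finset.sum_congr rfl fun k _ => by rw [vc_cl]

theorem mt_one : mt one = 1 := by decide +kernel

/-- the matrix is symplectic -/
def Ok (a : ℕ) : Prop := mt a ∈ Matrix.symplecticGroup (Fin 2) F4

/-- the form on two vectors, as a digit -/
def fm (u v : ℕ) : ℕ :=
  Nat.land (Nat.xor (Nat.xor (sm u (cl (Nat.shiftRight v 4) 0)) (sm (Nat.shiftRight u 2) (cl (Nat.shiftRight v 6) 0)))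
    (Nat.xor (sm (Nat.shiftRight u 4) (cl v 0)) (sm (Nat.shiftRight u 6) (cl (Nat.shiftRight v 2) 0)))) 3

theorem dg_sm (s c : ℕ) : dg (sm s (cl c 0)) = dg s * dg c := by
  have h := congrFun (vc_sm s (cl_lt c 0)) (.inl 0)
  have h2 : dg (cl c 0) = dg c := vc_cl c (.inl 0) (.inl 0)
  rw [← h2]
  exact h

theorem dg_fm (u v : ℕ) : dg (fm u v) = sympForm 2 F4 (vc u) (vc v) := by
  have e : fm u v = ((sm u (cl (v >>> 4) 0) ^^^ sm (u >>> 2) (cl (v >>> 6) 0)) ^^^
      (sm (u >>> 4) (cl v 0) ^^^ sm (u >>> 6) (cl (v >>> 2) 0))) % 4 := Nat.and_two_pow_sub_one_eq_mod _ 2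
  rw [e, dg_mod, dg_xor, dg_xor, dg_xor, dg_sm, dg_sm, dg_sm, dg_sm, sympForm_eq_sum, Fin.sum_univ_two]
  have h : ∀ a b c d : F4, a + b + (c + d) = c - a + (d - b) := by decide
  exact h _ _ _ _

/-- the test for the symplectic group -/
def okb (a : ℕ) : Bool := [0, 1, 2, 3].all fun i => [0, 1, 2, 3].all fun j =>
  Nat.beq (fm (cl a i) (cl a j)) (fm (cl one i) (cl one j))

theorem ok_of {a : ℕ} (h : okb a = true) : Ok a := by
  have h1 : ∀ i j, sympForm 2 F4 (vc (cl a (ix i))) (vc (cl a (ix j))) =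
      sympForm 2 F4 (vc (cl one (ix i))) (vc (cl one (ix j))) := by
    intro i j
    have hm : ∀ k : Fin 2 ⊕ Fin 2, ix k ∈ [0, 1, 2, 3] := by decide
    rw [← dg_fm, ← dg_fm]
    exact congrArg dg (Nat.eq_of_beq_eq_true (List.all_eq_true.1 (List.all_eq_true.1 h _ (hm i)) _ (hm j)))
  have h2 : ∀ (b : ℕ) i j, sympForm 2 F4 (vc (cl b (ix i))) (vc (cl b (ix j))) =
      ((mt b)ᵀ * Matrix.J (Fin 2) F4 * mt b) i j := by
    intro b i j
    rw [Matrix.mul_assoc, Matrix.mul_apply, sympForm_def, dotProduct]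
    refine Finset.sum_congr rfl fun k _ => ?_
    rw [vc_cl, Matrix.transpose_apply, Matrix.mul_apply, Matrix.mulVec, dotProduct]
    exact congrArg _ (Finset.sum_congr rfl fun l _ => by rw [vc_cl])
  rw [Ok, SymplecticGroup.mem_iff']
  ext i j
  rw [← h2, h1, h2, mt_one, Matrix.transpose_one, Matrix.one_mul, Matrix.mul_one]

theorem Ok.mul {a b : ℕ} (ha : Ok a) (hb : Ok b) : Ok (mul a b) := by
  rw [Ok, mt_mul]
  exact Submonoid.mul_mem _ ha hb

theorem ok_one : Ok one := by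
  rw [Ok, mt_one]
  exact Submonoid.one_mem _

open Classical in
/-- the group element of a number -/
noncomputable def G (a : ℕ) : S44 := if h : Ok a then ⟨mt a, h⟩ else 1

theorem coe_G {a : ℕ} (h : Ok a) : (G a).1 = mt a := by rw [G, dif_pos h]

theorem G_mul {a b : ℕ} (ha : Ok a) (hb : Ok b) : G a * G b = G (mul a b) :=
  Subtype.ext (by rw [coe_G (ha.mul hb), mt_mul, ← coe_G ha, ← coe_G hb]; rfl)

theorem G_one : G one = 1 := Subtype.ext (by rw [coe_G ok_one, mt_one]; rfl)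

/-- the product of a list -/
noncomputable def pr (l : List ℕ) : ℕ := List.rec one (fun a _ r => frc r (mul a)) l

theorem pr_spec {l : List ℕ} (h : l.all okb = true) : Ok (pr l) ∧ (l.map G).prod = G (pr l) := by
  induction l with
  | nil => exact ⟨ok_one, G_one.symm⟩
  | cons a l ih =>
    rw [List.all_cons, Bool.and_eq_true] at h
    obtain ⟨h1, h2⟩ := ih h.2
    have e : pr (a :: l) = mul a (pr l) := frc_eq _ _
    rw [e, List.map_cons, List.prod_cons, h2, G_mul (ok_of h.1) h1]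
    exact ⟨(ok_of h.1).mul h1, rfl⟩

/-- two products are equal -/
noncomputable def chk (l l' : List ℕ) : Bool := l.all okb && l'.all okb && Nat.beq (pr l) (pr l')

theorem prod_eq (l l' : List ℕ) (h : chk l l' = true) : (l.map G).prod = (l'.map G).prod := by
  rw [chk, Bool.and_eq_true, Bool.and_eq_true] at h
  rw [(pr_spec h.1.1).2, (pr_spec h.1.2).2, Nat.eq_of_beq_eq_true h.2]

theorem eq2 {a b c : ℕ} (h : chk [a, b] [c] = true) : G a * G b = G c := by simpa using prod_eq _ _ h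

theorem comm {a b : ℕ} (h : chk [a, b] [b, a] = true) : Commute (G a) (G b) := by
  show G a * G b = G b * G a
  simpa using prod_eq _ _ h

theorem conj {u a b : ℕ} (h : chk [u, a] [b, u] = true) : G u * G a * (G u)⁻¹ = G b := by
  rw [mul_inv_eq_iff_eq_mul]
  simpa using prod_eq _ _ h

theorem isConj (u : ℕ) {a b : ℕ} (h : chk [u, a] [b, u] = true) : IsConj (G a) (G b) := isConj_iff.2 ⟨G u, conj h⟩

theorem inv_eq {a b : ℕ} (h : chk [a, b] [] = true) : (G a)⁻¹ = G b := by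
  refine inv_eq_of_mul_eq_one_right ?_
  simpa using prod_eq _ _ h

theorem pow_eq {a b : ℕ} (n : ℕ) (h : chk (List.replicate n a) [b] = true) : G a ^ n = G b := by
  simpa using prod_eq _ _ h

theorem pow_eq_one {a : ℕ} (n : ℕ) (h : chk (List.replicate n a) [] = true) : G a ^ n = 1 := by
  simpa using prod_eq _ _ h

theorem ne_of {a b : ℕ} (ha : okb a = true) (hb : okb b = true) (h : mt a ≠ mt b) : G a ≠ G b := fun e =>
  h (by rw [← coe_G (ok_of ha), ← coe_G (ok_of hb), e])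

theorem ne_one {a : ℕ} (ha : okb a = true) (h : mt a ≠ mt one) : G a ≠ 1 := G_one ▸ ne_of ha (by decide +kernel) h

/-! ### generation -/

theorem exists_vc (v : V4) : ∃ c < 256, vc c = v := by
  have h : ∀ p q r s : F4, ∃ c < 256, vc c (.inl 0) = p ∧ vc c (.inl 1) = q ∧ vc c (.inr 0) = r ∧ vc c (.inr 1) = s := by
    decide +kernel
  obtain ⟨c, hc, h1, h2, h3, h4⟩ := h (v (.inl 0)) (v (.inl 1)) (v (.inr 0)) (v (.inr 1))
  refine ⟨c, hc, funext fun i => ?_⟩
  rcases i with i | i <;> fin_cases i <;> assumption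

/-- the orbit: an entry `4 v + k` applies the letter `k` to the vector `v` -/
noncomputable def orb (L : List ℕ) (p : List ℕ) : ℕ → ℕ := List.rec (fun S => S)
  (fun e _ r S => frc (Bool.rec S (Nat.lor S (Nat.shiftLeft 1 (ap (L.getD (Nat.land e 3) one) (Nat.shiftRight e 2))))
    (Nat.testBit S (Nat.shiftRight e 2))) r) p

theorem orb_spec {L : List ℕ} {Q : ℕ → Prop} (hQ : ∀ k v, Q v → Q (ap (L.getD k one) v)) (p : List ℕ) {S : ℕ}
    (hS : ∀ v, S.testBit v = true → Q v) : ∀ v, (orb L p S).testBit v = true → Q v := by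
  induction p generalizing S with
  | nil => exact hS
  | cons e p ih =>
    have e1 : orb L (e :: p) S = orb L p (Bool.rec S (S ||| 1 <<< ap (L.getD (Nat.land e 3) one) (Nat.shiftRight e 2))
      (Nat.testBit S (Nat.shiftRight e 2))) := frc_eq _ _
    rw [e1]
    refine ih ?_
    cases ht : Nat.testBit S (Nat.shiftRight e 2) with
    | false => exact hS
    | true =>
      intro v hv
      have hv' : (S ||| 1 <<< ap (L.getD (Nat.land e 3) one) (Nat.shiftRight e 2)).testBit v = true := hv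
      rw [Nat.testBit_or, Bool.or_eq_true, Nat.one_shiftLeft, Nat.testBit_two_pow, decide_eq_true_eq] at hv'
      rcases hv' with h | h
      · exact hS v h
      · exact h ▸ hQ _ _ (hS _ ht)

/-- **generation** : `M` contains the transvection of `v₀` and the letters `L`, which are transitive on the vectors -/
theorem gen_of {M : Subgroup S44} (L : List ℕ) (hL : L.all okb = true) (hM : ∀ a ∈ L, G a ∈ M) (v₀ : ℕ)
    (h0 : transv (vc v₀) 1 ∈ M) (p : List ℕ) (h : Nat.beq (orb L p (2 ^ v₀)) (2 ^ 256 - 2) = true) : M = ⊤ := by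
  have hQ : ∀ k v, transv (vc v) (1 : F4) ∈ M → transv (vc (ap (L.getD k one) v)) (1 : F4) ∈ M := by
    intro k v hv
    have h1 : Ok (L.getD k one) ∧ G (L.getD k one) ∈ M := by
      rw [List.getD_eq_getElem?_getD]
      cases e : L[k]? with
      | none => exact ⟨ok_one, by rw [Option.getD_none, G_one]; exact M.one_mem⟩
      | some a => exact ⟨ok_of (List.all_eq_true.1 hL a (List.mem_of_getElem? e)), hM a (List.mem_of_getElem? e)⟩
    have h2 : G (L.getD k one) * transv (vc v) (1 : F4) = transv (vc (ap (L.getD k one) v)) 1 * G (L.getD k one) := by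
      refine Subtype.ext ?_
      show (G _).1 * sympTransvection 2 _ _ = sympTransvection 2 _ _ * (G _).1
      rw [coe_G h1.1, vc_ap, mul_sympTransvection h1.1]
    rw [← mul_inv_eq_iff_eq_mul] at h2
    rw [← h2]
    exact M.mul_mem (M.mul_mem h1.2 hv) (M.inv_mem h1.2)
  have h1 := orb_spec (Q := fun v => transv (vc v) (1 : F4) ∈ M) hQ p (S := 2 ^ v₀) fun v hv => by
    rw [Nat.testBit_two_pow, decide_eq_true_eq] at hv
    exact hv ▸ h0
  rw [Nat.eq_of_beq_eq_true h] at h1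
  rw [eq_top_iff, ← S0765.result (F := F4) 2, Subgroup.closure_le]
  rintro A ⟨w, c, hA⟩
  obtain ⟨d, rfl⟩ := (by decide : ∀ c : F4, ∃ d : F4, c = d ^ 2 * 1) c
  rw [← sympTransvection_smul] at hA
  obtain ⟨u, hu, e⟩ := exists_vc (d • w)
  rw [← e] at hA
  have e2 : A = transv (vc u) 1 := Subtype.ext hA
  rw [e2]
  by_cases hu0 : u = 0
  · have e3 : transv (vc u) (1 : F4) = 1 := by
      refine Subtype.ext ?_
      rw [hu0]
      decide +kernel
    rw [e3]
    exact M.one_mem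
  · refine h1 u ?_
    have h5 : ∀ u < 256, u ≠ 0 → (2 ^ 256 - 2).testBit u = true := by decide +kernel
    exact h5 u hu hu0

end Cfsg.Agent.E82.Grp
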